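import Cfsg.Agent.H30.ExcPair
import Cfsg.Agent.H6.Ind2
import Cfsg.Agent.H6.IndRep
import Cfsg.Agent.H5.Complete
import Cfsg.Agent.H81.Frob
import Cfsg.Agent.H90.SL2

/-! The character theoretic contradiction (notes/G2Q.md, part 2, CharA). -/

set_option autoImplicit false

namespace Cfsg.Agent.G2Q

open Subgroup Matrix H90

namespace CA

theorem sum_conj {K : Type*} [Group K] {X : Finset K} (hX : ∀ g, ∀ s ∈ X, g * s * g⁻¹ ∈ X) (g : K) (f : K → ℂ) :
    ∑ s ∈ X, f (g * s * g⁻¹) = ∑ s ∈ X, f s :=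
  Finset.sum_bij' (fun s _ => g * s * g⁻¹) (fun s _ => g⁻¹ * s * g⁻¹⁻¹) (fun s hs => hX g s hs)
    (fun s hs => hX g⁻¹ s hs) (fun s _ => by group) (fun s _ => by group) fun _ _ => rfl

theorem sum_pairs {K : Type*} [Group K] [Fintype K] {χ : K → ℂ} (h : IsIrrCharacter K χ) {X : Finset K}
    (hX : ∀ g, ∀ s ∈ X, g * s * g⁻¹ ∈ X) :
    ∑ s ∈ X, ∑ t ∈ X, χ (s * t) = (∑ s ∈ X, χ s) ^ 2 / χ 1 := by
  apply mul_left_cancel₀ (H6.card_ne_zero_complex K)
  have h1 : ∑ s ∈ X, ∑ t ∈ X, ∑ x, χ (s * (x * t * x⁻¹)) = Nat.card K * ∑ s ∈ X, ∑ t ∈ X, χ (s * t) := by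
    rw [Finset.mul_sum]
    refine Finset.sum_congr rfl fun s _ => ?_
    rw [Finset.sum_comm, Finset.sum_congr rfl fun x _ => sum_conj hX x fun t => χ (s * t), Finset.sum_const,
      nsmul_eq_mul, Finset.card_univ, Nat.card_eq_fintype_card]
  rw [← h1]
  simp only [H5.sum_irr_mul_conj_eq h]
  rw [pow_two, Finset.sum_mul_sum, Finset.sum_div, Finset.mul_sum]
  refine Finset.sum_congr rfl fun s _ => ?_
  rw [Finset.sum_div, Finset.mul_sum]
  refine Finset.sum_congr rfl fun t _ => ?_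
  ring

theorem sum_ind {G : Type*} [Group G] [Fintype G] (C : Subgroup G) (θ : C → ℂ) {X : Finset G}
    (hX : ∀ g, ∀ s ∈ X, g * s * g⁻¹ ∈ X) :
    ∑ s ∈ X, ∑ t ∈ X, indFun C θ (s * t) = C.index * ∑ s ∈ X, ∑ t ∈ X, extendByZero C θ (s * t) := by
  apply mul_left_cancel₀ (H6.card_ne_zero_complex C)
  rw [← mul_assoc, ← Nat.cast_mul, C.card_mul_index]
  conv_lhs => simp only [Finset.mul_sum, H6.card_mul_indFun]
  have h1 : ∀ x : G, ∑ s ∈ X, ∑ t ∈ X, extendByZero C θ (x⁻¹ * (s * t) * x) =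
      ∑ s ∈ X, ∑ t ∈ X, extendByZero C θ (s * t) := fun x => by
    rw [← sum_conj hX x⁻¹ fun s => ∑ t ∈ X, extendByZero C θ (s * t)]
    refine Finset.sum_congr rfl fun s _ => ?_
    rw [← sum_conj hX x⁻¹ fun t => extendByZero C θ (x⁻¹ * s * x⁻¹⁻¹ * t)]
    refine Finset.sum_congr rfl fun t _ => ?_
    congr 1; group
  rw [Finset.sum_congr rfl fun s _ => Finset.sum_comm, Finset.sum_comm, Finset.sum_congr rfl fun x _ => h1 x,
    Finset.sum_const, nsmul_eq_mul, Finset.card_univ, Nat.card_eq_fintype_card]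

theorem arith {g D : ℤ} {m : ℕ} (hm : 0 < m) (hg : g % 3 = 1)
    (h : g * (D - 3 ^ m) ^ 2 = 3 ^ m * (3 ^ m - 1) * (3 ^ m + 1) ^ 2 * D * (D - 1)) : False := by
  have p3 : Prime (3 : ℤ) := Int.prime_three
  have key : ∀ k ≤ m, (3 : ℤ) ^ k ∣ D := by
    intro k hk
    induction k with
    | zero => simp
    | succ k ih =>
      obtain ⟨E, hE⟩ := ih (by omega)
      obtain ⟨l, rfl⟩ : ∃ l, m = k + 1 + l := ⟨m - (k + 1), by omega⟩
      have h1 : g * (E - 3 * 3 ^ l) ^ 2 =
          3 * (3 ^ l * (3 ^ (k + 1 + l) - 1) * (3 ^ (k + 1 + l) + 1) ^ 2 * E * (D - 1)) := by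
        apply mul_left_cancel₀ (a := (3 : ℤ) ^ k * 3 ^ k) (by positivity)
        have e : (3 : ℤ) ^ (k + 1 + l) = 3 ^ k * (3 * 3 ^ l) := by ring
        have h2 : D - 3 ^ (k + 1 + l) = 3 ^ k * (E - 3 * 3 ^ l) := by rw [e, hE]; ring
        rw [h2] at h
        generalize (3 ^ (k + 1 + l) - 1 : ℤ) = u at *
        generalize (3 ^ (k + 1 + l) + 1 : ℤ) = w at *
        generalize D - 1 = d at *
        rw [e, hE] at h
        linear_combination h
      have h3 : (3 : ℤ) ∣ E - 3 * 3 ^ l := by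
        rcases p3.dvd_or_dvd (h1 ▸ Dvd.intro _ rfl : (3 : ℤ) ∣ g * (E - 3 * 3 ^ l) ^ 2) with h | h
        · omega
        · exact p3.dvd_of_dvd_pow h
      obtain ⟨E', hE'⟩ := h3
      exact ⟨E' + 3 ^ l, by rw [hE, pow_succ]; linear_combination 3 ^ k * hE'⟩
  obtain ⟨E, hE⟩ := key m le_rfl
  obtain ⟨l, rfl⟩ : ∃ l, m = l + 1 := ⟨m - 1, by omega⟩
  obtain ⟨y, hy⟩ : ∃ y : ℤ, 3 ^ (l + 1) = 3 * y := ⟨3 ^ l, by ring⟩
  have y0 : y ≠ 0 := by rintro rfl; exact absurd hy (by positivity)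
  rw [hy] at h hE
  have h1 : g * (E - 1) ^ 2 = (3 * y - 1) * (3 * y + 1) ^ 2 * E * (3 * y * E - 1) := by
    apply mul_left_cancel₀ (a := 3 * y * (3 * y)) (by positivity)
    rw [hE] at h
    linear_combination h
  have h2 := congrArg (Int.cast : ℤ → ZMod 3) h1
  have h3 : (g : ZMod 3) = 1 := by rw [← ZMod.intCast_mod g 3]; exact_mod_cast congrArg (Int.cast : ℤ → ZMod 3) hg
  push_cast at h2
  rw [h3] at h2
  generalize (y : ZMod 3) = y at h2
  generalize (E : ZMod 3) = E at h2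
  revert y E
  decide

theorem aux {G : Type*} [Group G] [Finite G] {j : G} {C : Subgroup G} (mC : ∀ {g : G}, g ∈ C ↔ g * j = j * g)
    (j2 : j * j = 1) (j1 : j ≠ 1)
    (one : ∀ s : G, s * s = 1 → s ≠ 1 → ∃ g, g * j * g⁻¹ = s)
    (D : Set G) (Dinv : ∀ t ∈ D, t⁻¹ ∈ D) (ti : ∀ g, ∀ t ∈ D, g * t * g⁻¹ ∈ D → g * j = j * g) (jD : j ∈ D)
    {M M' S : C → ℂ} (iM : IsIrrCharacter _ M) (iM' : IsIrrCharacter _ M')
    (iS : IsIrrCharacter _ S) {x n : ℕ} (hx : x = 3 ^ (n + 1)) (M1 : M 1 = x - 1) (M1' : M' 1 = x - 1) (S1 : S 1 = x)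
    (val : ∀ s : C, (s : G) = j → M s = -(x - 1) ∧ M' s = x - 1 ∧ S s = x)
    (val' : ∀ s : C, s * s = 1 → s ≠ 1 → (s : G) ≠ j → M s = 0 ∧ M' s = 0 ∧ S s = 1)
    (card : Nat.card {s : G // s * j = j * s ∧ s * s = 1 ∧ s ≠ 1 ∧ s ≠ j} = x * (x + 1))
    (van : ∀ c : C, (c : G) ∉ D → 1 + M c = S c ∧ 1 + M' c = S c)
    (idx : C.index % 3 = 1) : False := by
  classical
  have := Fintype.ofFinite G
  let j' : C := ⟨j, mC.2 rfl⟩
  have x3 : 3 ≤ x := by rw [hx, pow_succ]; have := Nat.one_le_pow n 3 (by decide); omega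
  have x0 : (x : ℂ) ≠ 0 := by exact_mod_cast (show x ≠ 0 by omega)
  have x1 : (x : ℂ) - 1 ≠ 0 := by rw [sub_ne_zero]; exact_mod_cast (show x ≠ 1 by omega)
  have x2 : (x : ℂ) - 1 ≠ 1 := by
    rw [Ne, sub_eq_iff_eq_add]; exact_mod_cast (show x ≠ 1 + 1 by omega)
  have hTI : ∀ g : G, g ∉ C → ∀ t ∈ D, g * t * g⁻¹ ∈ D → t = 1 := fun g hg t ht h =>
    absurd (mC.2 (ti g t ht h)) hg
  let I : Finset G := Finset.univ.filter fun s => s * s = 1 ∧ s ≠ 1
  let IC : Finset C := Finset.univ.filter fun s => s * s = 1 ∧ s ≠ 1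
  have cjI : ∀ {K : Type _} [Group K] (g s : K), s * s = 1 ∧ s ≠ 1 →
      g * s * g⁻¹ * (g * s * g⁻¹) = 1 ∧ g * s * g⁻¹ ≠ 1 := fun g s h =>
    ⟨by rw [conj_mul, h.1]; group, fun e => h.2 (by simpa using e)⟩
  have hI : ∀ g, ∀ s ∈ I, g * s * g⁻¹ ∈ I := fun g s hs => by
    simp only [I, Finset.mem_filter, Finset.mem_univ, true_and] at hs ⊢
    exact cjI g s hs
  have hIC : ∀ g, ∀ s ∈ IC, g * s * g⁻¹ ∈ IC := fun g s hs => by
    simp only [IC, Finset.mem_filter, Finset.mem_univ, true_and] at hs ⊢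
    exact cjI g s hs
  have cI : I.card = C.index := by
    have h1 : C = centralizer {j} := Subgroup.ext fun g => mC.trans mem_centralizer_singleton_iff.symm
    rw [h1, ← H81.card_isConj_eq_index, ← Fintype.card_coe, ← Nat.card_eq_fintype_card]
    refine Nat.card_congr (Equiv.subtypeEquivRight fun s => ?_)
    simp only [I, Finset.mem_filter, Finset.mem_univ, true_and, isConj_iff]
    exact ⟨fun h => one s h.1 h.2, fun ⟨g, hg⟩ => hg ▸ cjI g j ⟨j2, j1⟩⟩
  have sI : ∀ χ : G → ℂ, IsIrrCharacter G χ → ∑ s ∈ I, ∑ t ∈ I, χ (s * t) = (C.index * χ j) ^ 2 / χ 1 := by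
    intro χ h
    rw [CA.sum_pairs h hI, ← cI, Finset.sum_congr rfl (g := fun _ => χ j), Finset.sum_const, nsmul_eq_mul]
    intro s hs
    simp only [I, Finset.mem_filter, Finset.mem_univ, true_and] at hs
    obtain ⟨g, rfl⟩ := one s hs.1 hs.2
    exact H5.isClassFunction_of_isCharacter (H5.isCharacter_of_isIrr h) _ _
  have jIC : j' ∈ IC := by
    simp only [IC, Finset.mem_filter, Finset.mem_univ, true_and]
    exact ⟨Subtype.ext j2, fun e => j1 (congrArg Subtype.val e)⟩
  have cIC : (IC.erase j').card = x * (x + 1) := by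
    rw [← card, ← Fintype.card_coe, ← Nat.card_eq_fintype_card]
    refine Nat.card_congr ⟨fun s => ⟨s.1.1, ?_⟩, fun s => ⟨⟨s.1, mC.2 s.2.1⟩, ?_⟩, fun _ => rfl, fun _ => rfl⟩
    · have := s.2
      simp only [IC, Finset.mem_erase, Finset.mem_filter, Finset.mem_univ, true_and] at this
      exact ⟨mC.1 s.1.2, congrArg Subtype.val this.2.1, fun e => this.2.2 (Subtype.ext e),
        fun e => this.1 (Subtype.ext e)⟩
    · simp only [IC, Finset.mem_erase, Finset.mem_filter, Finset.mem_univ, true_and]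
      exact ⟨fun e => s.2.2.2.2 (congrArg Subtype.val e), Subtype.ext s.2.2.1,
        fun e => s.2.2.2.1 (congrArg Subtype.val e)⟩
  have sIC : ∀ (χ : C → ℂ) (c : ℂ), IsIrrCharacter C χ → (∀ s : C, s * s = 1 → s ≠ 1 → (s : G) ≠ j → χ s = c) →
      ∑ s ∈ IC, ∑ t ∈ IC, χ (s * t) = (χ j' + x * (x + 1) * c) ^ 2 / χ 1 := by
    intro χ c h hc
    rw [CA.sum_pairs h hIC, ← Finset.add_sum_erase _ _ jIC, Finset.sum_congr rfl (g := fun _ => c),
      Finset.sum_const, nsmul_eq_mul, cIC]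
    · push_cast; rfl
    · intro s hs
      simp only [IC, Finset.mem_erase, Finset.mem_filter, Finset.mem_univ, true_and] at hs
      exact hc s hs.2.1 hs.2.2 fun e => hs.1 (Subtype.ext e)
  have i1 : IsIrrCharacter C fun _ => 1 := H5.isIrrCharacter_one
  have ne1 : ∀ {A B : C → ℂ}, A 1 ≠ B 1 → A ≠ B := fun h e => h (congrFun e 1)
  have S_1 : S ≠ fun _ => 1 := ne1 (by rw [S1]; exact fun e => x1 (by rw [e, sub_self]))
  -- the common part for `M` and `M'`
  have main : ∀ N : C → ℂ, IsIrrCharacter C N → N 1 = x - 1 → N j' ^ 2 = (x - 1) ^ 2 →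
      (∀ s : C, s * s = 1 → s ≠ 1 → (s : G) ≠ j → N s = 0) → (∀ c : C, (c : G) ∉ D → 1 + N c = S c) →
      ∃ μ ν, IsIrrCharacter G μ ∧ IsIrrCharacter G ν ∧ μ ≠ (fun _ => 1) ∧ ν ≠ (fun _ => 1) ∧ μ ≠ ν ∧
        indFun C (S - N - fun _ => 1) = μ - ν - (fun _ => 1) ∧ μ 1 = ν 1 + 1 ∧ μ j - ν j = x - N j' ∧
        C.index * (1 + ν j ^ 2 / ν 1 - μ j ^ 2 / μ 1) = x * (x - 1) * (x + 1) ^ 2 := by
    intro N iN N1 Nj Nv Nvan
    have cl : IsClassFunction C (S - N - fun _ => 1) := fun g h => by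
      simp only [Pi.sub_apply, H5.isClassFunction_of_isCharacter (H5.isCharacter_of_isIrr iS) g h,
        H5.isClassFunction_of_isCharacter (H5.isCharacter_of_isIrr iN) g h]
    have v : ∀ c : C, (c : G) ∉ D → (S - N - fun _ => 1 : C → ℂ) c = 0 := fun c hc => by
      simp only [Pi.sub_apply, ← Nvan c hc]; ring
    have v1 : (S - N - fun _ => 1 : C → ℂ) 1 = 0 := by simp only [Pi.sub_apply, S1, N1]; ring
    have N_1 : N ≠ fun _ => 1 := ne1 (by rw [N1]; exact x2)
    have NS : N ≠ S := ne1 (by rw [N1, S1]; simp)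
    obtain ⟨μ, ν, iμ, iν, μ1, ν1, μν, e⟩ := H30.virt_norm_three (ψ := indFun C (S - N - fun _ => 1))
      (H6.isGeneralizedCharacter_indFun C (H53.virt_sub (H53.virt_sub (H53.virt_of_irr iS) (H53.virt_of_irr iN))
        H53.virt_one))
      (by
        rw [H6.classInner_indFun_indFun_of_TI C D hTI cl v v v1]
        simp only [H5.classInner_sub_left, H5.classInner_sub_right, H5.classInner_irr_self iS,
          H5.classInner_irr_self iN, H5.classInner_irr_self i1, H5.classInner_irr_ne iS iN NS.symm,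
          H5.classInner_irr_ne iN iS NS, H5.classInner_irr_ne iS i1 S_1, H5.classInner_irr_ne i1 iS S_1.symm,
          H5.classInner_irr_ne iN i1 N_1, H5.classInner_irr_ne i1 iN N_1.symm]
        norm_num)
      (by rw [H6.indFun_apply_one, v1, mul_zero])
      (by
        rw [H6.classInner_indFun_left C _ (fun _ _ => rfl)]
        simp only [H5.classInner_sub_left, H5.classInner_irr_self i1, H5.classInner_irr_ne iS i1 S_1,
          H5.classInner_irr_ne iN i1 N_1]
        norm_num)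
    refine ⟨μ, ν, iμ, iν, μ1, ν1, μν, funext e, ?_, ?_, ?_⟩
    · have := e 1
      rw [H6.indFun_apply_one, v1, mul_zero] at this
      linear_combination -this
    · have := e j
      rw [show j = (j' : G) from rfl, H6.indFun_eq_of_TI C D hTI cl v j' jD fun e => j1 (congrArg Subtype.val e)]
        at this
      simp only [Pi.sub_apply, (val j' rfl).2.2] at this
      linear_combination -this
    · have h1 := CA.sum_ind C (S - N - fun _ => 1) hI
      have h2 : ∑ s ∈ IC, ∑ t ∈ IC, (S - N - fun _ => 1 : C → ℂ) (s * t) =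
          ∑ s ∈ I, ∑ t ∈ I, extendByZero C (S - N - fun _ => 1) (s * t) := by
        have mem : ∀ s : C, s ∈ IC → (s : G) ∈ I := fun s hs => by
          simp only [I, IC, Finset.mem_filter, Finset.mem_univ, true_and] at hs ⊢
          exact ⟨congrArg Subtype.val hs.1, fun e => hs.2 (Subtype.ext e)⟩
        have nmem : ∀ s ∈ I, s ∉ Subtype.val '' (IC : Set C) → s ∉ C := fun s hs h hc => h ⟨⟨s, hc⟩, by
          simp only [I, IC, Finset.coe_filter, Finset.mem_filter, Finset.mem_univ, true_and,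
            Set.mem_ofPred_eq] at hs ⊢
          exact ⟨Subtype.ext hs.1, fun e => hs.2 (congrArg Subtype.val e)⟩, rfl⟩
        refine Finset.sum_of_injOn Subtype.val Subtype.val_injective.injOn mem (fun s hs h => ?_) fun s _ => ?_
        · refine Finset.sum_eq_zero fun t ht => ?_
          by_cases hc : s * t ∈ C
          · rw [H6.extendByZero_of_mem _ _ hc]
            refine v _ fun hD => nmem s hs h (mC.2 (ti s _ hD ?_))
            simp only [I, Finset.mem_filter, Finset.mem_univ, true_and] at hs ht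
            have := Dinv _ hD
            rwa [_root_.mul_inv_rev, ← eq_inv_of_mul_eq_one_left ht.1, ← one_mul t, ← hs.1,
              mul_assoc s s t] at this
          · exact H6.extendByZero_of_notMem _ _ hc
        · refine Finset.sum_of_injOn Subtype.val Subtype.val_injective.injOn mem (fun t ht h => ?_) fun t _ => ?_
          · exact H6.extendByZero_of_notMem _ _ fun hc => nmem t ht h ((mul_mem_cancel_left s.2).1 hc)
          · exact (H6.extendByZero_of_mem _ _ (mul_mem s.2 t.2)).symm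
      rw [← h2] at h1
      simp only [e, Pi.sub_apply, Finset.sum_sub_distrib] at h1
      rw [sI μ iμ, sI ν iν, sI _ H5.isIrrCharacter_one, sIC S 1 iS fun s a b c => (val' s a b c).2.2,
        sIC N 0 iN Nv, sIC _ 1 i1 fun _ _ _ _ => rfl, mul_zero, add_zero, Nj, N1, S1, (val j' rfl).2.2] at h1
      have g0 : (C.index : ℂ) ≠ 0 := by exact_mod_cast index_ne_zero_of_finite
      apply mul_left_cancel₀ g0
      have h3 : ((x : ℂ) + x * (x + 1) * 1) ^ 2 / x - (x - 1) ^ 2 / (x - 1) - (1 + x * (x + 1) * 1) ^ 2 / 1 =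
          -(x * (x - 1) * (x + 1) ^ 2) := by field_simp; ring
      rw [h3] at h1
      linear_combination -h1
  obtain ⟨μ, ν, iμ, iν, μ1, ν1, μν, e, d, a, b⟩ := main M iM M1 (by rw [(val j' rfl).1]; ring)
    (fun s a b c => (val' s a b c).1) fun c h => (van c h).1
  obtain ⟨μ', ν', iμ', iν', μ1', ν1', μν', e', d', a', b'⟩ := main M' iM' M1' (by rw [(val j' rfl).2.1])
    (fun s a b c => (val' s a b c).2.1) fun c h => (van c h).2
  rw [(val j' rfl).1] at a
  rw [(val j' rfl).2.1] at a'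
  have two : classInner (μ - ν - fun _ => 1) (μ' - ν' - fun _ => 1) = 2 := by
    have MM : M ≠ M' := fun h => x1 (by
      have := (val j' rfl).1
      rw [h, (val j' rfl).2.1] at this
      linear_combination this / 2)
    have M_1 : M ≠ fun _ => 1 := ne1 (by rw [M1]; exact x2)
    have M_1' : M' ≠ fun _ => 1 := ne1 (by rw [M1']; exact x2)
    have MS : M ≠ S := ne1 (by rw [M1, S1]; simp)
    have MS' : M' ≠ S := ne1 (by rw [M1', S1]; simp)
    rw [← e, ← e', H6.classInner_indFun_indFun_of_TI C D hTI (fun g h => by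
        simp only [Pi.sub_apply, H5.isClassFunction_of_isCharacter (H5.isCharacter_of_isIrr iS) g h,
          H5.isClassFunction_of_isCharacter (H5.isCharacter_of_isIrr iM') g h])
      (fun c hc => by simp only [Pi.sub_apply, ← (van c hc).1]; ring)
      (fun c hc => by simp only [Pi.sub_apply, ← (van c hc).2]; ring)
      (by simp only [Pi.sub_apply, S1, M1]; ring)]
    simp only [H5.classInner_sub_left, H5.classInner_sub_right, H5.classInner_irr_self iS,
      H5.classInner_irr_self i1, H5.classInner_irr_ne iS iM' MS'.symm, H5.classInner_irr_ne iM iM' MM,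
      H5.classInner_irr_ne iM iS MS, H5.classInner_irr_ne iS i1 S_1, H5.classInner_irr_ne i1 iS S_1.symm,
      H5.classInner_irr_ne iM i1 M_1, H5.classInner_irr_ne i1 iM' M_1'.symm]
    norm_num
  have i1' : IsIrrCharacter G fun _ => 1 := H5.isIrrCharacter_one
  simp only [H5.classInner_sub_left, H5.classInner_sub_right, H5.classInner_irr_self i1',
    H5.classInner_irr_ne iμ i1' μ1, H5.classInner_irr_ne iν i1' ν1, H5.classInner_irr_ne i1' iμ' μ1'.symm,
    H5.classInner_irr_ne i1' iν' ν1'.symm] at two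
  have cases : μ = μ' ∨ ν = ν' := by
    by_contra! hc
    obtain ⟨k, hk⟩ := H5.exists_nat_classInner (H5.isCharacter_of_isIrr iμ) (H5.isCharacter_of_isIrr iν')
    obtain ⟨l, hl⟩ := H5.exists_nat_classInner (H5.isCharacter_of_isIrr iν) (H5.isCharacter_of_isIrr iμ')
    rw [H5.classInner_irr_ne iμ iμ' hc.1, H5.classInner_irr_ne iν iν' hc.2, hk, hl] at two
    have : ((k + l + 1 : ℕ) : ℂ) = 0 := by push_cast; linear_combination -two
    exact absurd (Nat.cast_eq_zero.1 this) (by omega)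
  have g0 : (C.index : ℂ) ≠ 0 := by exact_mod_cast index_ne_zero_of_finite
  obtain ⟨E, E0, hE⟩ := H5.exists_pos_nat_degree iν
  have E0' : (E : ℂ) ≠ 0 := by exact_mod_cast E0.ne'
  have E1' : (E : ℂ) + 1 ≠ 0 := by exact_mod_cast Nat.succ_ne_zero E
  have fin : ∀ d : ℤ, (C.index : ℂ) * (d - x) ^ 2 = x * (x - 1) * (x + 1) ^ 2 * d * (d - 1) → False := fun d h =>
    CA.arith (g := C.index) (D := d) (m := n + 1) (by omega) (by omega) (by
      rw [hx] at h
      exact_mod_cast h)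
  rcases cases with rfl | rfl
  · have d1 : ν' 1 = ν 1 := by linear_combination d - d'
    rw [d1, ← b] at b'
    have h1 := mul_left_cancel₀ g0 b'
    rw [hE] at h1
    have h2 : (ν' j - ν j) * (ν' j + ν j) = 0 := by
      field_simp at h1; linear_combination h1
    have h3 : ν' j + ν j = 0 := (mul_eq_zero.1 h2).resolve_left fun h => x1 (by linear_combination (h - a + a') / 2)
    have h4 : ν j = 1 - x := by linear_combination (h3 - a + a') / 2
    have h5 : μ j = x := by linear_combination a + h4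
    refine fin (E + 1) ?_
    rw [d, hE, h4, h5] at b
    rw [← b]
    push_cast
    field_simp
    ring
  · have d1 : μ' 1 = μ 1 := by linear_combination d' - d
    rw [d1, ← b] at b'
    have h1 := mul_left_cancel₀ g0 b'
    rw [d, hE] at h1
    have h2 : (μ' j - μ j) * (μ' j + μ j) = 0 := by
      field_simp at h1
      apply mul_left_cancel₀ E0'
      linear_combination -h1
    have h3 : μ' j + μ j = 0 := (mul_eq_zero.1 h2).resolve_left fun h => x1 (by linear_combination (-h - a + a') / 2)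
    have h4 : μ j = x - 1 := by linear_combination (h3 + a - a') / 2
    have h5 : ν j = -x := by linear_combination h4 - a
    refine fin (-E) ?_
    rw [d, hE, h4, h5] at b
    rw [← b]
    push_cast
    field_simp
    ring

end CA


/-- Two virtual characters `1 + M - S`, `1 + M' - S` of `C(j)` supported on a trivial intersection set. -/
theorem charA {G : Type*} [Group G] [Finite G] {j : G} (j2 : j * j = 1) (j1 : j ≠ 1)
    (one : ∀ s : G, s * s = 1 → s ≠ 1 → ∃ g, g * j * g⁻¹ = s)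
    (D : Set G) (Dinv : ∀ t ∈ D, t⁻¹ ∈ D) (ti : ∀ g, ∀ t ∈ D, g * t * g⁻¹ ∈ D → g * j = j * g) (jD : j ∈ D)
    {M M' S : centralizer ({j} : Set G) → ℂ} (iM : IsIrrCharacter _ M) (iM' : IsIrrCharacter _ M')
    (iS : IsIrrCharacter _ S) {x n : ℕ} (hx : x = 3 ^ (n + 1)) (M1 : M 1 = x - 1) (M1' : M' 1 = x - 1) (S1 : S 1 = x)
    (val : ∀ s : centralizer ({j} : Set G), (s : G) = j → M s = -(x - 1) ∧ M' s = x - 1 ∧ S s = x)
    (val' : ∀ s : centralizer ({j} : Set G), s * s = 1 → s ≠ 1 → (s : G) ≠ j → M s = 0 ∧ M' s = 0 ∧ S s = 1)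
    (card : Nat.card {s : G // s * j = j * s ∧ s * s = 1 ∧ s ≠ 1 ∧ s ≠ j} = x * (x + 1))
    (van : ∀ c : centralizer ({j} : Set G), (c : G) ∉ D → 1 + M c = S c ∧ 1 + M' c = S c)
    (idx : (centralizer ({j} : Set G)).index % 3 = 1) : False :=
  CA.aux mem_centralizer_singleton_iff j2 j1 one D Dinv ti jD iM iM' iS hx M1 M1' S1 val val' card van idx

end Cfsg.Agent.G2Q
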