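import Cfsg.Agent.G2Q.SLc
import Cfsg.Agent.G2Q.SLb
import Cfsg.Agent.G2Q.Setup
import Cfsg.Agent.H29.OutKit

/-! Semilinear automorphisms of `SL₂(F)`. -/

set_option autoImplicit false

namespace Cfsg.Agent.G2Q

open Subgroup Matrix H90

namespace Semi

section Mat
variable {F E K : Type*} [Field F] [Field E] [Field K]

theorem map_apply (σ : F →+* E) (x : SL2 F) (i k : Fin 2) : (SpecialLinearGroup.map σ x).1 i k = σ (x.1 i k) := rfl

theorem map_gc (σ : F →+* E) (g : GL (Fin 2) F) (x : SL2 F) :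
    SpecialLinearGroup.map σ (gc g x) = gc (GeneralLinearGroup.map σ g) (SpecialLinearGroup.map σ x) := by
  symm
  rw [gc_eq_iff]
  have := congrArg σ.mapMatrix (gc_eq_iff.1 (rfl : gc g x = gc g x))
  rw [map_mul, map_mul] at this
  exact this

theorem det_map (σ : F →+* E) (g : GL (Fin 2) F) : (GeneralLinearGroup.map σ g).1.det = σ g.1.det :=
  (σ.map_det g.1).symm

theorem map_map (σ : F →+* E) (τ : E →+* K) (x : SL2 F) :
    SpecialLinearGroup.map τ (SpecialLinearGroup.map σ x) = SpecialLinearGroup.map (τ.comp σ) x := rfl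

theorem map_xu (σ : F →+* E) (t : F) : SpecialLinearGroup.map σ (xu t) = xu (σ t) := by
  apply sl2_ext <;> simp [map_apply]

theorem map_xl (σ : F →+* E) (t : F) : SpecialLinearGroup.map σ (xl t) = xl (σ t) := by
  apply sl2_ext <;> simp [map_apply]

theorem map_hh (σ : F →+* E) (a : Fˣ) : SpecialLinearGroup.map σ (hh a) = hh (Units.map (σ : F →* E) a) := by
  apply sl2_ext <;> simp [map_apply]

theorem map_ww (σ : F →+* E) : SpecialLinearGroup.map σ (ww : SL2 F) = ww := by
  apply sl2_ext <;> simp [map_apply]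

theorem map_neg' (σ : F →+* E) (x : SL2 F) : SpecialLinearGroup.map σ (-x) = -SpecialLinearGroup.map σ x := by
  apply sl2_ext <;> simp [map_apply]

theorem map_dc (σ : F →+* E) (a : Fˣ) (x : SL2 F) :
    SpecialLinearGroup.map σ (dc a x) = dc (Units.map (σ : F →* E) a) (SpecialLinearGroup.map σ x) := by
  apply sl2_ext <;> simp [map_apply]

theorem map_inj (σ : F →+* E) : Function.Injective (SpecialLinearGroup.map σ : SL2 F → SL2 E) := fun x y e =>
  Subtype.ext (Matrix.ext fun i k => σ.injective (congrArg (fun z : SL2 E => z.1 i k) e))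

theorem isSquare_iff (σ : F ≃+* F) {a : F} : IsSquare (σ a) ↔ IsSquare a :=
  ⟨fun ⟨r, hr⟩ => ⟨σ.symm r, σ.injective (by simp [hr])⟩, fun ⟨r, hr⟩ => ⟨σ r, by simp [hr]⟩⟩

theorem isSquare_mul_map [Finite F] (σ : F ≃+* F) (a : F) : IsSquare (a * σ a) := by
  by_cases h : IsSquare a
  · exact h.mul ((isSquare_iff σ).2 h)
  · exact SLc.isSquare_mul h fun k => h ((isSquare_iff σ).1 k)

theorem aut_comm [Finite F] (σ τ : F ≃+* F) (a : F) : σ (τ a) = τ (σ a) := by
  have := H29.isCyclic_ringAut F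
  letI : CommGroup (RingAut F) := IsCyclic.commGroup
  exact DFunLike.congr_fun (mul_comm (G := RingAut F) σ τ) a

theorem isSquare_of_mul {a b c : F} (hb : b ≠ 0) (h : a * b ^ 2 = c) (hc : IsSquare c) : IsSquare a := by
  obtain ⟨r, rfl⟩ := hc
  exact ⟨r / b, by field_simp; linear_combination h⟩

/-- The outer automorphism group of `SL₂(F)` is abelian. -/
theorem comm_inner [Finite F] (g g' : GL (Fin 2) F) (φ φ' : F ≃+* F) : ∃ y : SL2 F, ∀ x,
    gc g (SpecialLinearGroup.map (φ : F →+* F) (gc g' (SpecialLinearGroup.map (φ' : F →+* F) x))) =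
      y * gc g' (SpecialLinearGroup.map (φ' : F →+* F) (gc g (SpecialLinearGroup.map (φ : F →+* F) x))) * y⁻¹ := by
  obtain ⟨y, hy⟩ := inner_of_isSquare
    (g := g * GeneralLinearGroup.map (φ : F →+* F) g' * (g' * GeneralLinearGroup.map (φ' : F →+* F) g)⁻¹) (by
      refine isSquare_of_mul (gl_det_ne (g' * GeneralLinearGroup.map (φ' : F →+* F) g)) ?_
        ((isSquare_mul_map φ' g.1.det).mul (isSquare_mul_map φ g'.1.det))
      rw [pow_two, ← mul_assoc, ← det_mul, ← Units.val_mul, inv_mul_cancel_right]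
      simp only [Units.val_mul, det_mul, det_map, RingHom.coe_coe]
      ring)
  refine ⟨y, fun x => ?_⟩
  rw [← hy, map_gc, map_gc, ← gc_mul, ← gc_mul, ← gc_mul, mul_assoc _ g', inv_mul_cancel_right]
  congr 1
  exact Subtype.ext (Matrix.ext fun i k => aut_comm φ φ' _)

end Mat

variable {G : Type*} [Group G] {F : Type*} [Field F] [Finite F]

theorem exists_semi {f : SL2 F →* G} (hf : Function.Injective f) {c : G} (h : ∀ x, ∃ y, c * f x * c⁻¹ = f y) :
    ∃ (g : GL (Fin 2) F) (φ : F ≃+* F), ∀ x, c * f x * c⁻¹ = f (gc g (SpecialLinearGroup.map (φ : F →+* F) x)) := by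
  choose α hα using h
  let β : SL2 F →* SL2 F := MonoidHom.mk' α fun x y => hf (by rw [map_mul, ← hα, ← hα, ← hα, conj_mul, map_mul])
  have hi : Function.Injective β := fun x y e =>
    hf ((MulAut.conj c).injective ((hα x).trans ((congrArg f e).trans (hα y).symm)))
  obtain ⟨g, φ, hg⟩ := aut_semi hi
  exact ⟨g, φ, fun x => (hα x).trans (congrArg f (hg x))⟩

/-- A commutator of elements normalising the image of `f` acts as an inner automorphism. -/
theorem comm_act {f : SL2 F →* G} (hf : Function.Injective f) {c d : G} (hc : ∀ x, ∃ y, c * f x * c⁻¹ = f y)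
    (hd : ∀ x, ∃ y, d * f x * d⁻¹ = f y) : ∃ y : SL2 F, ∀ x,
      c * d * (d * c)⁻¹ * f x * (c * d * (d * c)⁻¹)⁻¹ = f (y * x * y⁻¹) := by
  obtain ⟨g, φ, hg⟩ := exists_semi hf hc
  obtain ⟨g', φ', hg'⟩ := exists_semi hf hd
  obtain ⟨y, hy⟩ := comm_inner g g' φ φ'
  refine ⟨y, fun x => ?_⟩
  have hs : Function.Surjective fun x => gc g' (SpecialLinearGroup.map (φ' : F →+* F)
      (gc g (SpecialLinearGroup.map (φ : F →+* F) x))) := by
    refine Finite.injective_iff_surjective.1 fun a b e => hf ((MulAut.conj (d * c)).injective ?_)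
    have k : ∀ z, MulAut.conj (d * c) (f z) = d * (c * f z * c⁻¹) * d⁻¹ := fun z => by
      rw [MulAut.conj_apply]; group
    rw [k, k, hg, hg, hg', hg']
    exact congrArg f e
  obtain ⟨z, rfl⟩ := hs x
  beta_reduce
  rw [← hy, ← hg, ← hg', ← hg', ← hg]
  group

/-- A subgroup normalised by `C(j)` all of whose elements have an odd power in `⟨j⟩` lies in `⟨j⟩`. -/
theorem le_pair [Finite G] {j : G} (jj : j * j = 1)
    (core : ∀ N : Subgroup G, (∀ x ∈ N, x * j = j * x) → (∀ c, c * j = j * c → ∀ x ∈ N, c * x * c⁻¹ ∈ N) →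
      Odd (Nat.card N) → N = ⊥)
    (N : Subgroup G) (h1 : ∀ x ∈ N, x * j = j * x) (h2 : ∀ c, c * j = j * c → ∀ x ∈ N, c * x * c⁻¹ ∈ N)
    {δ : ℕ} (hδ : Odd δ) (h3 : ∀ x ∈ N, x ^ δ = 1 ∨ x ^ δ = j) {x : G} (hx : x ∈ N) : x = 1 ∨ x = j := by
  have := Fact.mk Nat.prime_two
  have hc : ∀ y : N, y ^ δ ∈ center N := fun y => mem_center_iff.2 fun z => Subtype.ext (by
    rcases h3 y y.2 with e | e
    · simp [e]
    · simp only [Subgroup.coe_mul, SubmonoidClass.coe_pow, e, h1 z z.2])
  have hk : Odd (center N).index := by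
    by_contra k
    obtain ⟨y, hy⟩ := exists_prime_orderOf_dvd_card' (G := N ⧸ center N) 2 (Nat.not_odd_iff_even.1 k).two_dvd
    obtain ⟨y, rfl⟩ := QuotientGroup.mk_surjective y
    have : orderOf (QuotientGroup.mk y : N ⧸ center N) ∣ δ :=
      orderOf_dvd_of_pow_eq_one (by rw [← QuotientGroup.mk_pow, QuotientGroup.eq_one_iff]; exact hc y)
    rw [hy] at this
    exact hδ.not_two_dvd_nat this
  let τ : N →* N := MonoidHom.mk' (fun y => y ^ ((center N).index * δ)) fun a b => by
    have e := congrArg Subtype.val ((MonoidHom.transferCenterPow N).map_mul a b)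
    simp only [Subgroup.coe_mul, MonoidHom.transferCenterPow_apply] at e
    rw [pow_mul, pow_mul, pow_mul, e]
    exact Commute.mul_pow (mem_center_iff.1 ((center N).pow_index_mem b) _) δ
  have hτ : ∀ y : N, y ∈ τ.ker ↔ (y : G) ^ ((center N).index * δ) = 1 := fun y => by
    rw [MonoidHom.mem_ker, Subtype.ext_iff]
    rfl
  have hO : τ.ker.map N.subtype = ⊥ := by
    refine core _ ?_ ?_ ?_
    · rintro _ ⟨y, -, rfl⟩; exact h1 y y.2
    · rintro c hc _ ⟨y, hy, rfl⟩
      refine ⟨⟨_, h2 c hc y y.2⟩, (hτ _).2 ?_, rfl⟩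
      change (c * y * c⁻¹) ^ _ = 1
      rw [conj_pow, (hτ y).1 hy, mul_one, mul_inv_cancel]
    · by_contra k
      obtain ⟨y, hy⟩ := exists_prime_orderOf_dvd_card' (G := τ.ker.map N.subtype) 2
        (Nat.not_odd_iff_even.1 k).two_dvd
      obtain ⟨_, z, hz, rfl⟩ := y
      rw [← Subgroup.orderOf_coe] at hy
      have := orderOf_dvd_of_pow_eq_one ((hτ z).1 hz)
      rw [show orderOf (z : G) = 2 from hy] at this
      exact (hk.mul hδ).not_two_dvd_nat this
  have h4 : x * x = 1 := by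
    have : x * x ∈ τ.ker.map N.subtype := ⟨⟨x * x, mul_mem hx hx⟩, (hτ _).2 (by
      change (x * x) ^ _ = 1
      rw [← pow_two, ← pow_mul, show 2 * ((center N).index * δ) = δ * 2 * (center N).index by ring, pow_mul, pow_mul]
      rcases h3 x hx with e | e <;> simp [e, pow_two, jj]), rfl⟩
    rwa [hO] at this
  obtain ⟨k, rfl⟩ := hδ
  have := h3 x hx
  rwa [pow_succ, pow_mul, pow_two, h4, one_pow, one_mul] at this

end Semi

end Cfsg.Agent.G2Q
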